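import Mathlib
import Cfsg.Agent.Lib.Helper14.PG63.Defs
import Cfsg.Agent.Lib.Helper40.SympOrder
import Cfsg.Agent.Lib.Helper40.SympCenter

/-!
# PG63 (S3664), package [PSPV]: the primes dividing `|PSp₆(3)| = 2⁹ · 3⁹ · 5 · 7 · 13`
-/

set_option autoImplicit false

namespace Cfsg.Agent.Lib.Helper8.PG63

universe u

/-- the order of `PSp₆(3)` -/
theorem card_psp63 {F : Type u} [Field F] [Fintype F] (hF : Fintype.card F = 3) :
    Nat.card (Cfsg.PSp 3 F) = 2 ^ 9 * 3 ^ 9 * 5 * 7 * 13 := by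
  have hlag : Nat.card (Subgroup.center (Matrix.symplecticGroup (Fin 3) F)) *
      Nat.card (Cfsg.PSp 3 F) = Nat.card (Matrix.symplecticGroup (Fin 3) F) := by
    rw [mul_comm]
    exact (Subgroup.card_eq_card_quotient_mul_card_subgroup _).symm
  have hS := Cfsg.Agent.Lib.Helper40.card_symplecticGroup (F := F) 3
  have hZ := Cfsg.Agent.Lib.Helper40.card_center_symplectic (F := F) 3 (by norm_num)
  rw [hF] at hS hZ
  rw [hS, hZ] at hlag
  have h2 : Nat.gcd 2 (3 - 1) = 2 := by decide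
  have hprod : (3 : ℕ) ^ (3 ^ 2) * ∏ i ∈ Finset.range 3, (3 ^ (2 * (i + 1)) - 1) =
      2 * (2 ^ 9 * 3 ^ 9 * 5 * 7 * 13) := by
    rw [Finset.prod_range_succ, Finset.prod_range_succ, Finset.prod_range_one]
    norm_num
  rw [h2, hprod] at hlag
  exact Nat.eq_of_mul_eq_mul_left (by norm_num) hlag

/-- [PSPV] -/
theorem pkgPSpV : Cfsg.Agent.Lib.Helper14.PG63.PkgPSpV.{u} := by
  intro F _ _ hF p hp
  rw [card_psp63 hF]
  unfold Cfsg.Agent.Lib.Helper14.PG63.Vx
  constructor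
  · intro h
    have h2 : Nat.Prime 2 := by norm_num
    have h3 : Nat.Prime 3 := by norm_num
    have h5 : Nat.Prime 5 := by norm_num
    have h7 : Nat.Prime 7 := by norm_num
    have h13 : Nat.Prime 13 := by norm_num
    rcases (Nat.Prime.dvd_mul hp).mp h with h | h
    · rcases (Nat.Prime.dvd_mul hp).mp h with h | h
      · rcases (Nat.Prime.dvd_mul hp).mp h with h | h
        · rcases (Nat.Prime.dvd_mul hp).mp h with h | h
          · exact Or.inl ((Nat.prime_dvd_prime_iff_eq hp h2).mp (hp.dvd_of_dvd_pow h))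
          · exact Or.inr (Or.inl ((Nat.prime_dvd_prime_iff_eq hp h3).mp (hp.dvd_of_dvd_pow h)))
        · exact Or.inr (Or.inr (Or.inl ((Nat.prime_dvd_prime_iff_eq hp h5).mp h)))
      · exact Or.inr (Or.inr (Or.inr (Or.inl ((Nat.prime_dvd_prime_iff_eq hp h7).mp h))))
    · exact Or.inr (Or.inr (Or.inr (Or.inr ((Nat.prime_dvd_prime_iff_eq hp h13).mp h))))
  · rintro (rfl | rfl | rfl | rfl | rfl) <;> norm_num

end Cfsg.Agent.Lib.Helper8.PG63
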