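import Mathlib
import Cfsg.Agent.Lib.Helper14.PG63.Defs
import Cfsg.Agent.Lib.Helper8.PG.Final

/-!
# PG63 (S3664), package [PSPN2]: `PSp₆(3)` has no element of order `26`
-/

set_option autoImplicit false

namespace Cfsg.Agent.Lib.Helper8.PG63

universe u

/-- a field with three elements has characteristic three -/
theorem charP_three {F : Type u} [Field F] [Fintype F] (hF : Fintype.card F = 3) : CharP F 3 :=
  haveI : Fact (Nat.Prime 3) := ⟨by norm_num⟩
  charP_of_card_eq_prime hF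

theorem orderOf_three_zmod13 : orderOf (((3 : ℕ) : ZMod 13)) = 3 :=
  haveI : Fact (Nat.Prime 3) := ⟨by norm_num⟩
  orderOf_eq_prime (by decide) (by decide)

/-- [PSPN2] -/
theorem pkgPSpN2 : Cfsg.Agent.Lib.Helper14.PG63.PkgPSpN2.{u} := by
  intro F _ _ hF
  rintro ⟨g, hg⟩
  haveI : Fact (Nat.Prime 3) := ⟨by norm_num⟩
  haveI : CharP F 3 := charP_three hF
  have hodd : Odd (Fintype.card F) := by rw [hF]; decide
  have h2 : Nat.Prime 2 := by norm_num
  have h13 : Nat.Prime 13 := by norm_num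
  have hmem : 2 * 13 ∈ Set.range (orderOf : Cfsg.PSp 3 F → ℕ) := ⟨g, by rw [hg]⟩
  have hO := (Cfsg.Agent.Lib.Helper8.PG.s2474 hodd 3 le_rfl 2 13 h2 h13 (by norm_num)).mpr hmem
  have hOm : Cfsg.Agent.Lib.Helper8.PG.OmHas 3 F (2 * 13) :=
    (Cfsg.Agent.Lib.Helper43.PG.pkgBridge hodd 3 le_rfl (2 * 13)).mp hO
  have hk : (3 : ℕ) = orderOf (((Fintype.card F : ℕ) : ZMod 13)) := by
    rw [hF]; exact orderOf_three_zmod13.symm
  have hcrit := Cfsg.Agent.Lib.Helper8.PG.d2 hodd 3 3 (by norm_num) 13 3 3 h13 (by norm_num)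
    (by norm_num) hk (Or.inl ⟨by decide, rfl⟩) hOm
  rw [hF] at hcrit
  rcases hcrit with h | ⟨-, h | h⟩
  · omega
  · omega
  · exact absurd h.2.1 (by decide)

end Cfsg.Agent.Lib.Helper8.PG63
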