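import Mathlib
import Cfsg.Agent.Lib.Helper14.PG63.Defs
import Cfsg.Agent.Lib.Helper8.PG.Final
import Cfsg.Agent.Lib.Helper8.PG63.PSpN2

/-!
# PG63 (S3664), package [PSPY2]: `PSp₆(3)` has elements of order `6`, `10`, `14`
-/

set_option autoImplicit false

namespace Cfsg.Agent.Lib.Helper8.PG63

universe u

theorem orderOf_three_zmod5 : orderOf (((3 : ℕ) : ZMod 5)) = 4 :=
  (orderOf_eq_iff (by norm_num)).mpr ⟨by decide, by decide⟩

theorem orderOf_three_zmod7 : orderOf (((3 : ℕ) : ZMod 7)) = 6 :=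
  (orderOf_eq_iff (by norm_num)).mpr ⟨by decide, by decide⟩

/-- [PSPY2] -/
theorem pkgPSpY2 : Cfsg.Agent.Lib.Helper14.PG63.PkgPSpY2.{u} := by
  intro F _ _ hF
  haveI : Fact (Nat.Prime 3) := ⟨by norm_num⟩
  haveI : CharP F 3 := charP_three hF
  have hodd : Odd (Fintype.card F) := by rw [hF]; decide
  have h3 : Nat.Prime 3 := by norm_num
  have h5 : Nat.Prime 5 := by norm_num
  have h7 : Nat.Prime 7 := by norm_num
  have key : ∀ s : ℕ, s.Prime → s ≠ 2 → Cfsg.Agent.Lib.Helper8.PG.SpHas2 3 F s →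
      ∃ g : Cfsg.PSp 3 F, orderOf g = 2 * s := by
    intro s hs hs2 h
    obtain ⟨g, hg⟩ :=
      (Cfsg.Agent.Lib.Helper86.PG.pkgPSp2 hodd 3 (by norm_num) s hs hs2).mpr h
    exact ⟨g, hg⟩
  refine ⟨?_, ?_, ?_⟩
  · -- order `6 = 2 p`
    exact key 3 h3 (by norm_num) (Cfsg.Agent.Lib.Helper86.PG.pkgSp2p hodd 3 3 (by norm_num))
  · -- order `10`: `k = 4`, `η = 2 ≤ n - 1`
    have hk : (4 : ℕ) = orderOf (((Fintype.card F : ℕ) : ZMod 5)) := by
      rw [hF]; exact orderOf_three_zmod5.symm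
    exact key 5 h5 (by norm_num)
      (Cfsg.Agent.Lib.Helper79.PG.pkgSpA hodd 3 3 5 4 2 (by norm_num) h5 (by norm_num)
        (by norm_num) hk (Or.inr ⟨by decide, rfl⟩) (by norm_num))
  · -- order `14`: `k = 6 = 2 n`, `n` odd, `q ≡ 3 (mod 4)`
    have hk : 2 * 3 = orderOf (((Fintype.card F : ℕ) : ZMod 7)) := by
      rw [hF]; exact orderOf_three_zmod7.symm
    exact key 7 h7 (by norm_num)
      (Cfsg.Agent.Lib.Helper24.PG.pkgSpN3 Cfsg.Agent.Lib.Helper24.PG.pkgPoly3 3 3 7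
        (by norm_num) h7 (by norm_num) (by norm_num) hk (by decide) (by rw [hF]))

end Cfsg.Agent.Lib.Helper8.PG63
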